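import Cfsg.Agent.Chev.Invol
import Cfsg.Agent.Chev.Mult
import Cfsg.Agent.Chev.Coord
import Cfsg.Agent.BN.LangS

/-! The adjoint module of `E₇(2)`: bracket, invariant form, root elements. -/

set_option autoImplicit false

namespace CF.E7t

open CF.Chev CF.BN Cfsg Cfsg.Lie Matrix Sum LieBasis

/-- The field. -/
abbrev F := ZMod 2

/-- The roots. -/
abbrev Rt := Fin 126

/-- The basis. -/
abbrev Ix := Fin 7 ⊕ Rt

/-- The adjoint module. -/
abbrev V := Ix → F

/-- The group. -/
abbrev G := ↥(chevE7.group F)

/-- The Chevalley basis. -/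
noncomputable def c7 : ChevBasis (Fin 7) Rt := cbE7

theorem tb7 : TabOf c7 tabE7 := tabOf certE7

theorem sl7 : c7.SameLen := sameLenE7

/-- The root elements. -/
noncomputable def ρ : StRep c7 F G := linkE7.gpRep F

/-- The matrices. -/
def fA : G →* GL Ix F := (chevE7.group F).subtype

theorem hA : ρ.IsAdHom fA := linkE7.isAdHom_gpRep F

theorem faith : ρ.Faithful := ⟨_, hA⟩

theorem top : ρ.Gp = ⊤ := linkE7.gpRep_Gp F

/-- The action on the adjoint module. -/
noncomputable def π : G →* Module.End F V :=
  (toLinAlgEquiv' (R := F)).toMulEquiv.toMonoidHom.comp ((Units.coeHom _).comp fA)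

theorem π_apply (g : G) (v : V) : π g v = (fA g).val *ᵥ v := toLinAlgEquiv'_apply _ _

theorem π_inj : Function.Injective π :=
  (toLinAlgEquiv' (R := F)).injective.comp (Units.val_injective.comp Subtype.val_injective)

theorem π_mul (g h : G) (v : V) : π (g * h) v = π g (π h v) := by rw [map_mul]; rfl

@[simp] theorem π_one (v : V) : π 1 v = v := by rw [map_one]; rfl

@[simp] theorem π_inv_π (g : G) (v : V) : π g⁻¹ (π g v) = v := by rw [← π_mul, inv_mul_cancel, π_one]

@[simp] theorem π_π_inv (g : G) (v : V) : π g (π g⁻¹ v) = v := by rw [← π_mul, mul_inv_cancel, π_one]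

theorem π_injective (g : G) : Function.Injective (π g) := Function.LeftInverse.injective (π_inv_π g)

/-- The root vectors. -/
def e (r : Rt) : V := bv F (inr r)

/-- The simple coroots. -/
def hb (i : Fin 7) : V := bv F (inl i)

/-- The coroots. -/
noncomputable def hv (r : Rt) : V := c7.hv F r

/-- The root elements. -/
noncomputable def x (r : Rt) : G := ρ.x r 1

/-- The bracket. -/
noncomputable def br : V →ₗ[F] V →ₗ[F] V := (toLin' (R := F)).toLinearMap ∘ₗ c7.ad F

theorem br_apply (u v : V) : br u v = c7.ad F u *ᵥ v := toLin'_apply _ _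

/-- The Gram matrix of the invariant form. -/
noncomputable def gM : Ix → Ix → F
  | inl i, inl j => c7.car i j
  | inr r, inr s => if s = c7.neg r then 1 else 0
  | _, _ => 0

/-- The invariant form. -/
noncomputable def gf : V →ₗ[F] V →ₗ[F] F := toBilin' (of gM)

/-- The exponential of an extremal vector. -/
noncomputable def X (a : V) : Module.End F V := 1 + br a + (gf a).smulRight a

theorem X_apply (a v : V) : X a v = v + br a v + gf a v • a := rfl

theorem f01 : ∀ t : F, t = 0 ∨ t = 1 := by decide

theorem f_ne {t : F} (h : t ≠ 0) : t = 1 := (f01 t).resolve_left h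

@[simp] theorem add_self (v : V) : v + v = 0 := funext fun _ => CharTwo.add_self_eq_zero _

theorem neg_eq (v : V) : -v = v := funext fun _ => CharTwo.neg_eq _

theorem sub_eq (u v : V) : u - v = u + v := by rw [sub_eq_add_neg, neg_eq]

theorem add_eq_zero_iff {u v : V} : u + v = 0 ↔ u = v := by rw [← sub_eq, sub_eq_zero]

@[simp] theorem add_add_cancel (u v : V) : u + (u + v) = v := by rw [← add_assoc, add_self, zero_add]

theorem ind {p : V → Prop} (h0 : p 0) (h1 : ∀ u v, p u → p v → p (u + v)) (h2 : ∀ c, p (bv F c))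
    (v : V) : p v := by
  rw [eq_sum_bv F v]
  refine Finset.sum_induction _ p h1 h0 fun c _ => ?_
  rcases f01 (v c) with h | h <;> simp [h, h0, h2]

theorem gf_bv (a b : Ix) : gf (bv F a) (bv F b) = gM a b := toBilin'_single _ a b

theorem A_symm (r s : Rt) : c7.A r s = c7.A s r := RootSys.A_symm_of_len (sl7 r s)

theorem A_cases (r s : Rt) :
    s = r ∨ c7.A r s = 1 ∨ c7.A r s = 0 ∨ c7.A r s = -1 ∨ s = c7.neg r := by
  by_cases h1 : s = r
  · exact .inl h1
  by_cases h2 : s = c7.neg r
  · simp [h2]
  have := RootSys.abs_A_le_of_len (sl7 r s) h1 h2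
  omega

theorem A_neg_self (r : Rt) : c7.A r (c7.neg r) = -2 := by rw [c7.A_neg_right, c7.A_self]

theorem A_of_add {r s u : Rt} (h : c7.vec u = c7.vec s + c7.vec r) : c7.A r s = -1 := by
  have k1 := RootSys.A_add h r
  have k2 := RootSys.abs_A_le_of_len (sl7 r u) (c7.add_ne_left (h.trans (add_comm _ _)))
    (c7.add_ne_neg_left (h.trans (add_comm _ _)))
  have k3 := RootSys.abs_A_le_of_len (sl7 r s) (c7.ne_of_add h) (c7.ne_neg_of_add h)
  rw [c7.A_self] at k1
  omega

theorem vec_add {r s : Rt} (h : c7.A r s = -1) : c7.vec (c7.refl r s) = c7.vec s + c7.vec r := by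
  rw [c7.vec_refl, h]; simp

theorem ne_neg {r s : Rt} (h : c7.A r s = -1) : s ≠ c7.neg r := fun e => by
  rw [e, A_neg_self] at h; omega

theorem N_one {r s : Rt} (h : c7.A r s = -1) : (c7.N r s : F) = 1 :=
  f_ne (cast_ne_zero_of_natAbs_one (c7.N_abs_one r s _ (vec_add h) fun v k => by
    have k1 := RootSys.A_sub k r
    have k2 : c7.A r v = -1 := A_of_add (u := s) (by rw [k]; simp)
    rw [c7.A_self] at k1
    omega))

theorem br_hb (i : Fin 7) (c : Ix) : br (hb i) (bv F c) = (c7.sp i (c7.wt c) : F) • bv F c := by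
  rw [br_apply, hb, ad_bv, br_inl]
  funext a
  by_cases h : a = c <;> simp [mulVec_diagonal, bv_apply, h]

theorem br_hv (r : Rt) (c : Ix) : br (hv r) (bv F c) = (c7.cor r (c7.wt c) : F) • bv F c := by
  rw [br_apply, hv, ad_hv]
  funext a
  by_cases h : a = c <;> simp [mulVec_diagonal, bv_apply, h]

theorem br_e_hb (r : Rt) (i : Fin 7) : br (e r) (hb i) = (c7.sp i (c7.vec r) : F) • e r := by
  rw [br_apply, e, ad_root, hb, E_one_inl, CharTwo.neg_eq]

theorem br_e_neg (r : Rt) : br (e r) (e (c7.neg r)) = hv r := by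
  rw [br_apply, e, ad_root, e, E_one_neg, hv]

theorem br_e_add {r s : Rt} (h : c7.A r s = -1) : br (e r) (e s) = e (c7.refl r s) := by
  rw [br_apply, e, ad_root, e, E_one_root _ (vec_add h), N_one h, one_smul, e]

theorem br_e_zero {r s : Rt} (h : 0 ≤ c7.A r s) : br (e r) (e s) = 0 := by
  rw [br_apply, e, ad_root, e, E_one_none _ (fun u k => by have := A_of_add k; omega)
    (RootSys.ne_neg_of_A_nonneg h)]

theorem A_tri (r s : Rt) : 0 ≤ c7.A r s ∨ c7.A r s = -1 ∨ s = c7.neg r := by
  rcases A_cases r s with h | h | h | h | h <;> simp [h]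

theorem hv_neg (r : Rt) : hv (c7.neg r) = hv r := by rw [hv, c7.hv_neg, neg_eq, hv]

theorem refl_comm {r s : Rt} (h : c7.A r s = -1) : c7.refl s r = c7.refl r s :=
  c7.vec_inj (by rw [vec_add h, vec_add ((A_symm s r).trans h), add_comm])

theorem br_bv_comm (a b : Ix) : br (bv F a) (bv F b) = br (bv F b) (bv F a) := by
  have k : ∀ i r, br (hb i) (e r) = br (e r) (hb i) := fun i r => by rw [br_e_hb, e, br_hb]; rfl
  rcases a with i | r <;> rcases b with j | s
  · change br (hb i) _ = br (hb j) _
    simp [br_hb, RootSys.wt]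
  · exact k i s
  · exact (k j r).symm
  · change br (e r) (e s) = br (e s) (e r)
    rcases A_tri r s with h | h | rfl
    · rw [br_e_zero h, br_e_zero (A_symm r s ▸ h)]
    · rw [br_e_add h, br_e_add ((A_symm s r).trans h), refl_comm h]
    · rw [br_e_neg, ← hv_neg r, ← br_e_neg, c7.neg_neg]

theorem br_comm (u v : V) : br u v = br v u := by
  induction u using ind with
  | h0 => simp
  | h1 a b ha hb => simp [ha, hb]
  | h2 a =>
    induction v using ind with
    | h0 => simp
    | h1 a b ha hb => simp [ha, hb]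
    | h2 b => exact br_bv_comm a b

@[simp] theorem br_self (v : V) : br v v = 0 := by
  induction v using ind with
  | h0 => simp
  | h1 a b ha hb => simp [ha, hb, br_comm a b]
  | h2 a =>
    rcases a with i | r
    · exact (br_hb i _).trans (by simp [RootSys.wt])
    · exact br_e_zero (by simp)

theorem jacobi (u v w : V) : br (br u v) w = br u (br v w) + br v (br u w) := by
  have k : ∀ u, c7.Der (K := F) u := fun u => by
    induction u using ind with
    | h0 => intro w; simp
    | h1 a b ha hb =>
      intro w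
      rw [map_add, add_mulVec, map_add, ← ha w, ← hb w, add_mul, mul_add]
      abel
    | h2 a =>
      rcases a with i | r
      · have := (c7.der_root F (c7.simple i)).bracket (c7.der_root F (c7.neg (c7.simple i)))
        rwa [ad_root, E_one_neg, hv_simple] at this
      · exact c7.der_root F r
  rw [br_apply, br_apply u v, ← k u v, sub_mulVec, sub_eq, ← mulVec_mulVec, ← mulVec_mulVec]
  rfl

theorem car_symm (i j : Fin 7) : c7.car i j = c7.car j i := by
  rw [← c7.A_simple_simple, ← c7.A_simple_simple, A_symm]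

theorem gM_comm (a b : Ix) : gM a b = gM b a := by
  rcases a with i | r <;> rcases b with j | s
  · simp only [gM, car_symm i j]
  all_goals simp [gM, c7.eq_neg_comm]

theorem gf_comm (u v : V) : gf u v = gf v u := by
  induction u using ind with
  | h0 => simp
  | h1 a b ha hb => simp [ha, hb]
  | h2 a =>
    induction v using ind with
    | h0 => simp
    | h1 a b ha hb => simp [ha, hb]
    | h2 b => rw [gf_bv, gf_bv, gM_comm]

@[simp] theorem gf_self (v : V) : gf v v = 0 := by
  induction v using ind with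
  | h0 => simp
  | h1 a b ha hb => simp [ha, hb, gf_comm a b, CharTwo.add_self_eq_zero]
  | h2 a =>
    rw [gf_bv]
    rcases a with i | r
    · simp only [gM, c7.car_self]; rfl
    · simp [gM, c7.self_ne_neg]

theorem wt_of_gM {a b : Ix} (h : gM a b ≠ 0) : c7.wt b = - c7.wt a := by
  rcases a with i | r <;> rcases b with j | s <;> simp_all [gM, RootSys.wt, c7.vec_neg]

theorem gf_e (r : Rt) (v : V) : gf (e r) v = v (inr (c7.neg r)) := by
  induction v using ind with
  | h0 => simp
  | h1 a b ha hb => simp [ha, hb]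
  | h2 b =>
    rw [e, gf_bv]
    rcases b with j | s <;> simp [gM, bv_apply, eq_comm]

theorem gf_ee (r s : Rt) : gf (e r) (e s) = if s = c7.neg r then 1 else 0 := gf_bv _ _

theorem gf_e_hv (r s : Rt) : gf (e r) (hv s) = 0 := gf_e _ _

theorem gf_hv_hb (r : Rt) (i : Fin 7) : gf (hv r) (hb i) = (c7.sp i (c7.vec r) : F) := by
  rw [hv, hv_eq_sum, ← c7.A_simple, A_symm, c7.A_simple_right]
  simp [hb, gf_bv, gM]

theorem gf_br_e (r s t : Rt) : gf (br (e r) (e s)) (e t) =
    if c7.vec r + c7.vec s + c7.vec t = 0 then 1 else 0 := by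
  have k : c7.vec r + c7.vec s + c7.vec t = 0 → c7.vec (c7.neg t) = c7.vec s + c7.vec r := fun h => by
    rw [c7.vec_neg, add_comm, eq_neg_of_add_eq_zero_left h]
  rcases A_tri r s with h | h | rfl
  · rw [br_e_zero h, if_neg fun h' => by have := A_of_add (k h'); omega]; simp
  · rw [br_e_add h, gf_ee]
    refine if_congr ⟨fun h' => by rw [h', c7.vec_neg, vec_add h]; abel, fun h' => ?_⟩ rfl rfl
    rw [c7.eq_neg_comm]
    exact c7.vec_inj ((vec_add h).trans (k h').symm)
  · rw [br_e_neg, gf_comm, gf_e_hv, if_neg fun h' => c7.ne_neg_of_add (k h') rfl]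

theorem gf_br_swap (u v w : V) : gf (br u v) w = gf (br u w) v := by
  induction u using ind with
  | h0 => simp
  | h1 a b ha hb => simp [ha, hb]
  | h2 a =>
  induction v using ind with
  | h0 => simp
  | h1 a b ha hb => simp [ha, hb]
  | h2 b =>
  induction w using ind with
  | h0 => simp
  | h1 a b ha hb => simp [ha, hb]
  | h2 c =>
  rcases a with i | r
  · change gf (br (hb i) _) _ = gf (br (hb i) _) _
    simp only [br_hb, map_smul, LinearMap.smul_apply, gf_bv, gM_comm c b]
    by_cases h : gM b c = 0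
    · simp [h]
    · simp [wt_of_gM h, CharTwo.neg_eq]
  · have k : ∀ i s, gf (br (e r) (hb i)) (e s) = gf (br (e r) (e s)) (hb i) := fun i s => by
      rw [br_e_hb, map_smul, LinearMap.smul_apply, gf_ee]
      rcases A_tri r s with h | h | rfl
      · simp [br_e_zero h, RootSys.ne_neg_of_A_nonneg h]
      · simp [br_e_add h, ne_neg h, gf_e, hb, bv_apply]
      · simp [br_e_neg, gf_hv_hb]
    rcases b with j | s <;> rcases c with l | t
    · change gf (br (e r) (hb j)) (hb l) = gf (br (e r) (hb l)) (hb j)
      rw [br_e_hb, br_e_hb]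
      simp [gf_e, hb, bv_apply]
    · exact k j t
    · exact (k l s).symm
    · change gf (br (e r) (e s)) (e t) = gf (br (e r) (e t)) (e s)
      rw [gf_br_e, gf_br_e, add_right_comm]

theorem gf_br (u v w : V) : gf (br u v) w = gf u (br v w) := by
  rw [br_comm, gf_br_swap, gf_comm]

theorem π_x (r : Rt) (v : V) : π (x r) v = X (e r) v := by
  induction v using ind with
  | h0 => simp
  | h1 a b ha hb => simp [ha, hb]
  | h2 b =>
    rw [π_apply, x, hA, val_xG, X_apply, gf_e]
    rcases b with i | s
    · rw [X_inl, sub_eq, one_mul]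
      change _ = _ + br (e r) (hb i) + _
      rw [br_e_hb]
      simp [bv_apply, e]
    · change _ = e s + br (e r) (e s) + _
      rcases A_tri r s with h | h | rfl
      · rw [(cm_of_sameLen sl7 h).X_bv, br_e_zero h]
        simp [bv_apply, (RootSys.ne_neg_of_A_nonneg h).symm, e]
      · rw [X_one_step _ _ (vec_add h) fun v k => by
          have k1 := A_of_add (r := r) (s := c7.refl r s) (u := v) (by rw [k, vec_add h]; module)
          rw [RootSys.A_add (vec_add h), c7.A_self] at k1
          omega, br_e_add h, N_one h]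
        simp [bv_apply, (ne_neg h).symm, e]
      · rw [X_neg_root, br_e_neg, sub_eq]
        simp [bv_apply, e, hv]

theorem x_eq (r : Rt) (t : F) : ρ.x r t = 1 ∨ ρ.x r t = x r := by
  rcases f01 t with rfl | rfl <;> simp [x]

theorem U_ind {S : Set Rt} {p : G → Prop} (h1 : p 1)
    (h2 : ∀ g r, g ∈ ρ.U S → r ∈ S → p g → p (x r * g)) {g : G} (hg : g ∈ ρ.U S) : p g :=
  ρ.U_induction_left h1 (fun g r t k1 k2 k3 => by
    rcases x_eq r t with h | h <;> rw [h]
    · rwa [one_mul]
    · exact h2 g r k1 k2 k3) hg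

theorem G_ind {p : G → Prop} (h1 : p 1) (h2 : ∀ g r, p g → p (x r * g)) (g : G) : p g :=
  U_ind (S := Set.univ) h1 (fun g r _ _ => h2 g r) (top.ge (Subgroup.mem_top g))

theorem π_br (g : G) (u v : V) : π g (br u v) = br (π g u) (π g v) := by
  induction g using G_ind with
  | h1 => simp
  | h2 g r ih =>
    rw [π_mul, ih, π_mul, π_mul, π_apply, br_apply, mulVec_mulVec, x, hA, val_xG,
      c7.isAut_X r 1, ← mulVec_mulVec, π_apply (ρ.x r 1), π_apply (ρ.x r 1), hA]
    rfl

theorem br_br_e (r : Rt) (v : V) : br (e r) (br (e r) v) = 0 := by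
  rw [br_apply, br_apply, mulVec_mulVec, e, ad_root, E_one_mul_one, show (2 : F) = 0 from rfl]
  simp

theorem π_gf (g : G) (u v : V) : gf (π g u) (π g v) = gf u v := by
  induction g using G_ind with
  | h1 => simp
  | h2 g r ih =>
    rw [π_mul, π_mul, π_x, π_x, ← ih]
    generalize π g u = a
    generalize π g v = b
    have k1 : gf (br (e r) a) b = gf a (br (e r) b) := by rw [br_comm, gf_br]
    have k2 : ∀ c, gf (e r) (br (e r) c) = 0 := fun c => by rw [← gf_br]; simp
    have k3 : gf (br (e r) a) (br (e r) b) = 0 := by rw [br_comm, gf_br, br_br_e]; simp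
    simp only [X_apply, map_add, map_smul, LinearMap.add_apply, LinearMap.smul_apply, k1, k2, k3,
      gf_comm _ (e r), gf_self, smul_eq_mul]
    generalize gf a b = p, gf a (br (e r) b) = q, gf (e r) a = s, gf (e r) b = t
    revert p q s t
    decide

theorem π_X (g : G) (a v : V) : π g (X a v) = X (π g a) (π g v) := by
  simp only [X_apply, map_add, map_smul, π_br, π_gf]

end CF.E7t
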