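import Cfsg.Agent.E7t.A

/-! The adjoint module of `E₇(2)`: the grading, extremal vectors, the group `Q = 2^{1+32}`. -/

set_option autoImplicit false

namespace CF.E7t

open CF.Chev CF.BN Cfsg Cfsg.Lie Matrix Sum LieBasis

/-- The highest root. -/
def θ : Rt := 125

/-- The lowest root. -/
def θ' : Rt := 0

theorem neg_val (r : Rt) : (c7.neg r : ℕ) = 125 - r := by
  have : allLt 126 (fun r => Nat.beq (tabE7.neg r) (125 - r)) = true := by decide +kernel
  exact (tb7.neg r).trans (Nat.eq_of_beq_eq_true (allLt_iff.1 this r r.2))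

theorem neg_θ : c7.neg θ = θ' := Fin.ext (neg_val θ)

theorem neg_θ' : c7.neg θ' = θ := Fin.ext (neg_val θ')

theorem top_θ : c7.Top θ := fun r i => by
  have : ∀ i : Fin 7, allLt 126 (fun r => decide (tabE7.vec r i ≤ tabE7.vec 125 i)) = true := by
    decide +kernel
  rw [tb7.vec, tb7.vec]
  exact of_decide_eq_true (allLt_iff.1 (this i) r r.2)

theorem A_simple_θ (i : Fin 7) : c7.A (c7.simple i) θ = if i = 0 then 1 else 0 := by
  rw [tb7.car]; revert i; decide +kernel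

/-- The degree of a basis vector. -/
noncomputable def deg (c : Ix) : ℤ := c7.wt c 0

@[simp] theorem deg_inl (i : Fin 7) : deg (inl i) = 0 := rfl

theorem deg_inr (r : Rt) : deg (inr r) = c7.vec r 0 := rfl

theorem A_θ (r : Rt) : c7.A θ r = deg (inr r) := by
  have : c7.cor θ = LinearMap.proj 0 := c7.lin_ext fun i => by
    rw [← c7.A_def, A_symm, A_simple_θ, c7.vec_simple]
    simp [Pi.single_apply, eq_comm]
  rw [c7.A_def, this]; rfl

theorem deg_val (r : Rt) : deg (inr r) = if r.val = 0 then -2 else if r.val ≤ 32 then -1 else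
    if r.val ≤ 92 then 0 else if r.val ≤ 124 then 1 else 2 := by
  have : allLt 126 (fun r => decide (tabE7.vec r 0 = if r = 0 then -2 else if r ≤ 32 then -1 else
    if r ≤ 92 then 0 else if r ≤ 124 then 1 else 2)) = true := by decide +kernel
  exact (tb7.vec r 0).trans (of_decide_eq_true (allLt_iff.1 this r r.2))

@[simp] theorem deg_θ : deg (inr θ) = 2 := deg_val θ

@[simp] theorem deg_θ' : deg (inr θ') = -2 := deg_val θ'

@[simp] theorem deg_neg (r : Rt) : deg (inr (c7.neg r)) = - deg (inr r) := by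
  rw [← A_θ, ← A_θ, c7.A_neg_right]

theorem eq_θ {c : Ix} (h : 2 ≤ deg c) : c = inr θ := by
  rcases c with i | r
  · simp at h
  · rw [← A_θ] at h
    rcases A_cases θ r with k | k | k | k | k
    · rw [k]
    any_goals omega
    rw [k, A_neg_self] at h; omega

theorem eq_θ' {c : Ix} (h : deg c ≤ -2) : c = inr θ' := by
  rcases c with i | r
  · simp at h
  · rw [← neg_θ, ← inr_injective (eq_θ (c := inr (c7.neg r)) (by simp; omega)), c7.neg_neg]

theorem deg_le (c : Ix) : deg c ≤ 2 := by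
  by_contra h
  rw [eq_θ (c := c) (by omega)] at h
  simp at h

theorem le_deg (c : Ix) : -2 ≤ deg c := by
  by_contra h
  rw [eq_θ' (c := c) (by omega)] at h
  simp at h

/-- The vectors with given support. -/
def Sp (S : Set Ix) : Submodule F V where
  carrier := {v | ∀ c, c ∉ S → v c = 0}
  add_mem' ha hb c hc := by simp [ha c hc, hb c hc]
  zero_mem' _ _ := rfl
  smul_mem' t _ h c hc := by simp [h c hc]

theorem mem_Sp {S : Set Ix} {v : V} : v ∈ Sp S ↔ ∀ c, c ∉ S → v c = 0 := Iff.rfl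

theorem bv_mem {S : Set Ix} {c : Ix} (h : c ∈ S) : bv F c ∈ Sp S := fun a ha => by
  rw [bv_apply, if_neg (by rintro rfl; exact ha h)]

theorem Sp_mono {S T : Set Ix} (h : S ⊆ T) : Sp S ≤ Sp T := fun _ hv c hc => hv c fun k => hc (h k)

theorem Sp_ind {S : Set Ix} {p : V → Prop} (h0 : p 0) (h1 : ∀ u v, p u → p v → p (u + v))
    (h2 : ∀ c ∈ S, p (bv F c)) {v : V} (hv : v ∈ Sp S) : p v := by
  rw [eq_sum_bv F v]
  refine Finset.sum_induction _ p h1 h0 fun c _ => ?_
  rcases f01 (v c) with h | h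
  · simp [h, h0]
  · simpa [h] using h2 c (not_not.1 fun k => by simp [hv c k] at h)

theorem br_bv_mem (a b : Ix) : br (bv F a) (bv F b) ∈ Sp {c | c7.wt c = c7.wt a + c7.wt b} := by
  rcases a with i | r
  · exact (br_hb i b).symm ▸ Submodule.smul_mem _ _ (bv_mem (by simp [RootSys.wt]))
  · intro c hc
    by_contra h
    rw [br_apply, ad_root, bv, mulVec_single_one] at h
    exact hc (by simpa [add_comm, RootSys.wt] using c7.E_graded h)

theorem br_mem {S T Z : Set Ix} (h : ∀ a ∈ S, ∀ b ∈ T, ∀ c, c7.wt c = c7.wt a + c7.wt b → c ∈ Z)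
    {u v : V} (hu : u ∈ Sp S) (hv : v ∈ Sp T) : br u v ∈ Sp Z :=
  Sp_ind (p := fun u => br u v ∈ Sp Z) (by simp) (fun _ _ h1 h2 => by simpa using add_mem h1 h2)
    (fun a ha => Sp_ind (p := fun v => br (bv F a) v ∈ Sp Z) (by simp)
      (fun _ _ h1 h2 => by simpa using add_mem h1 h2)
      (fun b hb => Sp_mono (h a ha b hb) (br_bv_mem a b)) hv) hu

theorem gf_zero {S T : Set Ix} (h : ∀ a ∈ S, ∀ b ∈ T, c7.wt b ≠ - c7.wt a)
    {u v : V} (hu : u ∈ Sp S) (hv : v ∈ Sp T) : gf u v = 0 :=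
  Sp_ind (p := fun u => gf u v = 0) (by simp) (fun _ _ h1 h2 => by simp [h1, h2])
    (fun a ha => Sp_ind (p := fun v => gf (bv F a) v = 0) (by simp)
      (fun _ _ h1 h2 => by simp [h1, h2])
      (fun b hb => by rw [gf_bv]; exact not_not.1 fun k => h a ha b hb (wt_of_gM k)) hv) hu

/-- The filtration. -/
def Lge (k : ℤ) : Submodule F V := Sp {c | k ≤ deg c}

/-- The grading. -/
def Lk (k : ℤ) : Submodule F V := Sp {c | deg c = k}

/-- The projections. -/
noncomputable def pr (k : ℤ) : V →ₗ[F] V where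
  toFun v c := if deg c = k then v c else 0
  map_add' u v := funext fun c => by by_cases h : deg c = k <;> simp [h]
  map_smul' t v := funext fun c => by by_cases h : deg c = k <;> simp [h]

theorem pr_apply (k : ℤ) (v : V) (c : Ix) : pr k v c = if deg c = k then v c else 0 := rfl

theorem pr_mem (k : ℤ) (v : V) : pr k v ∈ Lk k := fun _ hc => if_neg hc

theorem pr_of_mem {k : ℤ} {v : V} (h : v ∈ Lk k) : pr k v = v := funext fun c => by
  by_cases e : deg c = k <;> simp [pr_apply, e, h c]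

theorem pr_of_ne {j k : ℤ} {v : V} (h : v ∈ Lk j) (e : j ≠ k) : pr k v = 0 := funext fun c => by
  by_cases e' : deg c = k
  · simpa [pr_apply, e'] using h c fun a => e (a.symm.trans e')
  · simp [pr_apply, e']

theorem pr_of_lt {j k : ℤ} {v : V} (h : v ∈ Lge j) (e : k < j) : pr k v = 0 := funext fun c => by
  by_cases e' : deg c = k
  · simpa [pr_apply, e'] using h c (by simp; omega)
  · simp [pr_apply, e']

theorem Lk_le (k : ℤ) : Lk k ≤ Lge k := Sp_mono fun _ h => h.ge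

theorem Lge_mono {j k : ℤ} (h : j ≤ k) : Lge k ≤ Lge j := Sp_mono fun _ e => h.trans e

theorem add_pr_mem {k : ℤ} {v : V} (h : v ∈ Lge k) : v + pr k v ∈ Lge (k + 1) := fun c hc => by
  by_cases e : deg c = k
  · simp [pr_apply, e, CharTwo.add_self_eq_zero]
  · simpa [pr_apply, e] using h c (by simp at hc ⊢; omega)

theorem mem_Lge_bot (v : V) : v ∈ Lge (-2) := fun c hc => absurd (le_deg c) hc

theorem eq_zero_of_Lge {v : V} (h : v ∈ Lge 3) : v = 0 :=
  funext fun c => h c (by have := deg_le c; simp; omega)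

theorem sum_pr (v : V) : v = pr (-2) v + pr (-1) v + pr 0 v + pr 1 v + pr 2 v := funext fun c => by
  have := deg_le c
  have := le_deg c
  simp only [Pi.add_apply, pr_apply]
  interval_cases deg c <;> simp

theorem e_mem_Lk (r : Rt) : e r ∈ Lk (deg (inr r)) := bv_mem rfl

theorem e_mem_Lge {r : Rt} {k : ℤ} (h : k ≤ deg (inr r)) : e r ∈ Lge k := bv_mem h

theorem hv_mem (r : Rt) : hv r ∈ Lk 0 := by
  rintro (i | s) h
  · simp at h
  · rfl

theorem pr_two (v : V) : pr 2 v = v (inr θ) • e θ := funext fun c => by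
  by_cases h : c = inr θ
  · simp [h, pr_apply, e, bv_apply]
  · simp [h, pr_apply, e, bv_apply, show deg c ≠ 2 from fun k => h (eq_θ k.ge)]

theorem pr_neg_two (v : V) : pr (-2) v = v (inr θ') • e θ' := funext fun c => by
  by_cases h : c = inr θ'
  · simp [h, pr_apply, e, bv_apply]
  · simp [h, pr_apply, e, bv_apply, show deg c ≠ -2 from fun k => h (eq_θ' k.le)]

theorem mem_Lge_two {v : V} : v ∈ Lge 2 ↔ v = 0 ∨ v = e θ := by
  refine ⟨fun h => ?_, by rintro (rfl | rfl); exacts [zero_mem _, e_mem_Lge (by simp)]⟩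
  have := add_eq_zero_iff.1 (eq_zero_of_Lge (add_pr_mem h))
  rw [pr_two] at this
  rcases f01 (v (inr θ)) with k | k <;> simp [k] at this <;> simp [this]

theorem br_Lge {j k : ℤ} {u v : V} (hu : u ∈ Lge j) (hv : v ∈ Lge k) : br u v ∈ Lge (j + k) :=
  br_mem (fun a ha b hb c h => by simp only [Set.mem_ofPred_eq, deg, h, Pi.add_apply] at *; omega) hu hv

theorem br_Lk {j k : ℤ} {u v : V} (hu : u ∈ Lk j) (hv : v ∈ Lk k) : br u v ∈ Lk (j + k) :=
  br_mem (fun a ha b hb c h => by simp only [Set.mem_ofPred_eq, deg, h, Pi.add_apply] at *; omega) hu hv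

theorem gf_Lge {j k : ℤ} {u v : V} (hu : u ∈ Lge j) (hv : v ∈ Lge k) (h : 0 < j + k) : gf u v = 0 :=
  gf_zero (fun a ha b hb e => by simp only [Set.mem_ofPred_eq, deg, e, Pi.neg_apply] at *; omega) hu hv

theorem gf_Lk {j k : ℤ} {u v : V} (hu : u ∈ Lk j) (hv : v ∈ Lk k) (h : j + k ≠ 0) : gf u v = 0 :=
  gf_zero (fun a ha b hb e => by simp only [Set.mem_ofPred_eq, deg, e, Pi.neg_apply] at *; omega) hu hv

theorem br_h {k : ℤ} {v : V} (h : v ∈ Lk k) : br (hv θ) v = (k : F) • v :=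
  Sp_ind (p := fun v => br (hv θ) v = (k : F) • v) (by simp) (fun _ _ h1 h2 => by simp [h1, h2])
    (fun c hc => by
      rw [br_hv, ← show deg c = k from hc]
      rcases c with i | r
      · simp [RootSys.wt]
      · rw [← A_θ]; rfl) h

theorem br_θ_θ' : br (e θ) (e θ') = hv θ := by rw [← neg_θ, br_e_neg]

theorem gf_θ (v : V) : gf (e θ) v = v (inr θ') := by rw [gf_e, neg_θ]

theorem gf_θ' (v : V) : gf (e θ') v = v (inr θ) := by rw [gf_e, neg_θ']

theorem gf_θ_θ' : gf (e θ) (e θ') = 1 := by rw [gf_θ]; simp [e, bv_apply]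

theorem br_θ_br_θ' {v : V} (h : v ∈ Lk 1) : br (e θ) (br (e θ') v) = v := by
  have := jacobi (e θ) (e θ') v
  rw [br_θ_θ', br_h h, eq_zero_of_Lge (v := br (e θ) v)
    (br_Lge (e_mem_Lge (k := 2) (by simp)) (Lk_le _ h))] at this
  simpa using this.symm

theorem br_θ'_br_θ {v : V} (h : v ∈ Lk (-1)) : br (e θ') (br (e θ) v) = v := by
  have := jacobi (e θ) (e θ') v
  have k : br (e θ') v = 0 := funext fun c => br_Lk (e_mem_Lk θ') h c (by
    have := le_deg c
    simp; omega)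
  rw [br_θ_θ', br_h h, k] at this
  simpa [neg_eq] using this.symm

/-! ### The parabolic subgroup -/

/-- The stabilizer of the highest root vector. -/
noncomputable def P : Subgroup G := ρ.U {r | 0 ≤ deg (inr r)}

/-- Its unipotent radical. -/
noncomputable def Q : Subgroup G := ρ.U {r | 0 < deg (inr r)}

/-- Its Levi subgroup. -/
noncomputable def L0 : Subgroup G := ρ.U {r | deg (inr r) = 0}

theorem H_eq : ρ.H = ⊥ := le_bot_iff.1 (ρ.H_le_iff.2 fun r t => by
  rw [show t = 1 from Units.ext (f_ne t.ne_zero), ρ.h_one]; exact one_mem _)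

theorem lev_eq (r : Rt) : RootSys.lev {0}ᶜ (c7.vec r) = deg (inr r) := by
  rw [RootSys.lev_apply, Finset.sum_eq_single 0] <;> simp [deg_inr]

theorem Q_eq : Q = ρ.UJ {0}ᶜ := by simp only [Q, StRep.UJ, ← c7.lev_vec_pos_iff, lev_eq]

theorem L0_eq : L0 = ρ.LJ {0}ᶜ := by
  simp only [L0, StRep.LJ, ← c7.lev_vec_eq_zero_iff, lev_eq, H_eq, bot_sup_eq]

theorem P_eq : P = ρ.PJ {0}ᶜ := by
  rw [← ρ.UJ_sup_LJ, ← Q_eq, ← L0_eq, Q, L0, ← ρ.U_union, P]
  congr 1
  ext r
  simp [le_iff_lt_or_eq, eq_comm]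

theorem Q_le_P : Q ≤ P := ρ.U_mono fun r h => le_of_lt (show 0 < deg (inr r) from h)

theorem L0_le_P : L0 ≤ P := ρ.U_mono fun _ h => Eq.ge h

theorem Up_le_P : ρ.Up ≤ P := ρ.U_mono fun _ h => h 0

theorem exists_QL {g : G} (hg : g ∈ P) : ∃ q ∈ Q, ∃ l ∈ L0, g = q * l := by
  rw [Q_eq, L0_eq, ← StRep.mem_PJ_iff_UJ_LJ, ← P_eq]; exact hg

theorem conj_mem_Q {g q : G} (hg : g ∈ P) (hq : q ∈ Q) : g * q * g⁻¹ ∈ Q := by
  rw [Q_eq] at *; exact StRep.PJ_conj_mem_UJ (P_eq ▸ hg) hq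

theorem x_mem_Q {r : Rt} (h : 0 < deg (inr r)) : x r ∈ Q := ρ.x_mem_U h 1

theorem x_mem_L0 {r : Rt} (h : deg (inr r) = 0) : x r ∈ L0 := ρ.x_mem_U h 1

theorem x_add_mem {r : Rt} {d k : ℤ} (h0 : 0 ≤ d) (h : d ≤ deg (inr r)) {v : V} (hv : v ∈ Lge k) :
    π (x r) v + v ∈ Lge (k + d) := by
  rw [π_x, X_apply, add_comm _ v, add_assoc v, add_add_cancel]
  refine add_mem (add_comm k d ▸ br_Lge (e_mem_Lge h) hv) ?_
  by_cases k1 : 0 < deg (inr r) + k
  · simp [gf_Lge (e_mem_Lge le_rfl) hv k1]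
  · exact Submodule.smul_mem _ _ (e_mem_Lge (by omega))

theorem P_Lge {g : G} (hg : g ∈ P) {k : ℤ} {v : V} (hv : v ∈ Lge k) : π g v ∈ Lge k :=
  U_ind (p := fun g => π g v ∈ Lge k) (by simpa) (fun g r _ hr ih => by
    have := add_mem (x_add_mem le_rfl hr ih) (by simpa using ih : π g v ∈ Lge (k + 0))
    simpa [π_mul, add_assoc] using this) hg

theorem Q_Lge {q : G} (hq : q ∈ Q) {k : ℤ} {v : V} (hv : v ∈ Lge k) : π q v + v ∈ Lge (k + 1) :=
  U_ind (p := fun q => π q v + v ∈ Lge (k + 1)) (by simp) (fun g r hg hr ih => by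
    have := add_mem (x_add_mem zero_le_one hr (P_Lge (Q_le_P hg) hv)) ih
    simpa [π_mul, add_assoc] using this) hq

theorem L0_Lk {l : G} (hl : l ∈ L0) {k : ℤ} {v : V} (hv : v ∈ Lk k) : π l v ∈ Lk k :=
  U_ind (p := fun g => π g v ∈ Lk k) (by simpa) (fun g r _ hr ih => by
    have h0 : e r ∈ Lk 0 := bv_mem hr
    rw [π_mul, π_x, X_apply]
    refine add_mem (add_mem ih (by simpa using br_Lk h0 ih)) ?_
    by_cases k0 : k = 0
    · exact Submodule.smul_mem _ _ (k0 ▸ h0)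
    · simp [gf_Lk h0 ih (by simpa)]) hl

theorem L0_pr {l : G} (hl : l ∈ L0) (k : ℤ) (v : V) : pr k (π l v) = π l (pr k v) := by
  induction v using ind with
  | h0 => simp
  | h1 a b ha hb => simp [ha, hb]
  | h2 c =>
    have h : bv F c ∈ Lk (deg c) := bv_mem rfl
    by_cases e : deg c = k
    · subst e
      rw [pr_of_mem h, pr_of_mem (L0_Lk hl h)]
    · rw [pr_of_ne h e, pr_of_ne (L0_Lk hl h) e, map_zero]

theorem e_ne_zero (r : Rt) : e r ≠ 0 := fun h => by simpa [e, bv_apply] using congrFun h (inr r)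

theorem e_inj : Function.Injective e := fun r s h => by
  simpa [e, bv_apply] using congrFun h (inr r)

theorem P_θ {g : G} (hg : g ∈ P) : π g (e θ) = e θ :=
  (mem_Lge_two.1 (P_Lge hg (e_mem_Lge (by simp)))).resolve_left fun h =>
    e_ne_zero θ (π_injective g (by simpa using h))

theorem L0_θ' {l : G} (hl : l ∈ L0) : π l (e θ') = e θ' := by
  have h := pr_of_mem (L0_Lk hl (show e θ' ∈ Lk (-2) from bv_mem deg_θ'))
  rw [pr_neg_two, ← gf_θ (π l _), ← P_θ (L0_le_P hl), π_gf, gf_θ_θ', one_smul] at h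
  exact h.symm

theorem L0_h {l : G} (hl : l ∈ L0) : π l (hv θ) = hv θ := by
  rw [← br_θ_θ', π_br, L0_θ' hl, P_θ (L0_le_P hl)]

theorem P_h {g : G} (hg : g ∈ P) : π g (hv θ) + hv θ ∈ Lge 1 := by
  obtain ⟨q, hq, l, hl, rfl⟩ := exists_QL hg
  rw [π_mul, L0_h hl]
  simpa using Q_Lge hq (Lk_le _ (hv_mem θ))

theorem NW_e {n : G} {w : Equiv.Perm Rt} (hn : ρ.NW n w) (r : Rt) : π n (e r) = e (w r) := by
  obtain ⟨c, hc⟩ := hn.ad_bv hA r
  rcases f01 c with rfl | rfl
  · exact absurd (π_injective n (by rw [π_apply, e, hc]; simp)) (e_ne_zero r)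
  · rw [π_apply, e, hc, one_smul, e]

theorem exists_bruhat (g : G) : ∃ u ∈ ρ.Up, ∃ n w, ρ.NW n w ∧ ∃ u' ∈ ρ.Up, g = u * n * u' := by
  obtain ⟨w, u, hu, n, hn, u', hu', rfl⟩ := exists_unu top g
  exact ⟨u, hu, n, w, hn, u', ρ.Uw_le_Up _ hu', rfl⟩

theorem mem_P_iff {g : G} : g ∈ P ↔ π g (e θ) = e θ := by
  refine ⟨P_θ, fun h => ?_⟩
  obtain ⟨u, hu, n, w, hn, u', hu', rfl⟩ := exists_bruhat g
  rw [π_mul, π_mul, P_θ (Up_le_P hu'), NW_e hn] at h
  have h1 : w θ = θ := e_inj (by rw [← P_θ (inv_mem (Up_le_P hu)), ← h, π_inv_π])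
  refine mul_mem (mul_mem (Up_le_P hu) ?_) (Up_le_P hu')
  have := RootSys.mem_WJ_of_fix (J := Set.univ) (r := θ)
    (fun j _ => by rw [A_simple_θ]; split_ifs <;> simp) (c7.WJ_univ ▸ hn.mem_W) h1
  rw [P_eq]
  exact hn.mem_PJ (by convert this using 2; ext; simp [A_simple_θ])

end CF.E7t
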