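import Cfsg.Agent.E7t.B

/-! The adjoint module of `E₇(2)`: extremal vectors, root involutions, the image of `M ⊓ Q`. -/

set_option autoImplicit false

namespace CF.E7t

open CF.Chev CF.BN Cfsg Cfsg.Lie Matrix Sum LieBasis

theorem two : (2 : F) = 0 := rfl

theorem c2 {a b : V} (h : (1 : F) • a = b) : a = b := by rwa [one_smul] at h

/-- The extremal vectors. -/
def E : Set V := {a | ∃ g, a = π g (e θ)}

/-- `d` is the root involution of the extremal vector `a`. -/
def IsR (d : G) (a : V) : Prop := a ∈ E ∧ ∀ v, π d v = X a v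

theorem π_mem_E {a : V} (h : a ∈ E) (g : G) : π g a ∈ E :=
  h.elim fun k hk => ⟨g * k, by rw [hk, π_mul]⟩

theorem e_mem_E (r : Rt) : e r ∈ E := by
  obtain ⟨w, hw, h⟩ := top_θ.exists_W_of_len (sl7 r θ)
  obtain ⟨n, hn⟩ := ρ.exists_nW hw
  exact ⟨n⁻¹, by rw [← h, ← NW_e hn, π_inv_π]⟩

theorem isR_x (r : Rt) : IsR (x r) (e r) := ⟨e_mem_E r, π_x r⟩

theorem IsR.conj {d : G} {a : V} (h : IsR d a) (g : G) : IsR (g * d * g⁻¹) (π g a) :=
  ⟨π_mem_E h.1 g, fun v => by rw [π_mul, π_mul, h.2, π_X, π_π_inv]⟩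

theorem exists_isR {a : V} (h : a ∈ E) : ∃ d, IsR d a :=
  h.elim fun g hg => ⟨_, hg ▸ (isR_x θ).conj g⟩

theorem IsR.eq {d d' : G} {a : V} (h : IsR d a) (h' : IsR d' a) : d = d' :=
  π_inj (LinearMap.ext fun v => by rw [h.2, h'.2])

theorem exists_ue {a : V} (h : a ∈ E) : ∃ u ∈ P, ∃ r, a = π u (e r) := by
  obtain ⟨g, rfl⟩ := h
  obtain ⟨u, hu, n, w, hn, u', hu', rfl⟩ := exists_bruhat g
  exact ⟨u, Up_le_P hu, w θ, by rw [π_mul, π_mul, P_θ (Up_le_P hu'), NW_e hn]⟩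

theorem exists_pair {a b : V} (ha : a ∈ E) (hb : b ∈ E) :
    ∃ g r, a = π g (e θ) ∧ b = π g (e r) := by
  obtain ⟨g, rfl⟩ := ha
  obtain ⟨u, hu, r, h⟩ := exists_ue (π_mem_E hb g⁻¹)
  exact ⟨g * u, r, by rw [π_mul, P_θ hu], by rw [π_mul, ← h, π_π_inv]⟩

theorem ne_zero_of_E {a : V} (h : a ∈ E) : a ≠ 0 := by
  obtain ⟨g, rfl⟩ := h
  exact fun h => e_ne_zero θ (π_injective g (by simpa using h))

theorem br_br {a : V} (h : a ∈ E) (v : V) : br a (br a v) = 0 := by
  obtain ⟨g, rfl⟩ := h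
  rw [← π_π_inv g v, ← π_br, ← π_br, br_br_e, map_zero]

theorem gf_br_self (a v : V) : gf a (br a v) = 0 := by rw [← gf_br]; simp

theorem exists_br_ne {a : V} (h : a ∈ E) : ∃ b ∈ E, gf a b = 1 := by
  obtain ⟨g, rfl⟩ := h
  exact ⟨_, π_mem_E (e_mem_E θ') g, by rw [π_gf, gf_θ_θ']⟩

theorem premet {a : V} (h : a ∈ E) (u v : V) : br (br a u) (br a v) =
    gf a (br u v) • a + gf a v • br a u + gf a u • br a v := by
  obtain ⟨d, -, hd⟩ := exists_isR h
  have k := π_br d u v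
  have j := jacobi a u v
  simp only [hd, X_apply, map_add, map_smul, LinearMap.add_apply, LinearMap.smul_apply, br_self,
    br_br h, br_comm _ a, j, smul_zero, add_zero] at k
  linear_combination (norm := match_scalars <;> first | decide | (ring_nf <;> simp [two])) k

theorem IsR.sq {d : G} {a : V} (h : IsR d a) : d * d = 1 :=
  π_inj (LinearMap.ext fun v => by
    simp [π_mul, h.2, X_apply, br_br h.1, gf_br_self, add_assoc, add_left_comm])

theorem IsR.inv {d : G} {a : V} (h : IsR d a) : d⁻¹ = d := inv_eq_of_mul_eq_one_right h.sq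

theorem IsR.braid {d d' : G} {a b : V} (h : IsR d a) (h' : IsR d' b) (e : gf a b = 1) :
    π (d * d') a = b := by
  simp [π_mul, h.2, h'.2, X_apply, br_br h.1, gf_br_self, e, gf_comm b a, br_comm b a, add_assoc,
    add_left_comm, add_comm]

theorem IsR.fix {d : G} {a b : V} (h : IsR d a) (h1 : br a b = 0) (h2 : gf a b = 0) : π d b = b := by
  simp [h.2, X_apply, h1, h2]

theorem x_comm {r s : Rt} (h : c7.A r s = -1) :
    x r * x s * (x r)⁻¹ * (x s)⁻¹ = x (c7.refl r s) := by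
  have h' := (A_symm s r).trans h
  have k : ∀ {r s : Rt}, c7.A r s = -1 → ∀ z, c7.vec z ≠ c7.vec (c7.refl r s) + c7.vec r :=
    fun h z e => by
      have := A_of_add e
      rw [RootSys.A_add (vec_add h), c7.A_self] at this
      omega
  have := ρ.comm_single (vec_add h') (k h') (refl_comm h ▸ k h) 1 1
  rw [N_one h', CharTwo.neg_eq, one_mul, one_mul, refl_comm h] at this
  have c : ∀ t, c7.A t (c7.refl r s) = 1 → Commute (x (c7.refl r s)) (x t) := fun t ht =>
    (cm_of_sameLen sl7 (by rw [A_symm, ht]; decide)).commute ρ.toPreSt 1 1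
  have c1 := c r (by rw [RootSys.A_add (vec_add h), h, c7.A_self]; rfl)
  have c2 := c s (by rw [RootSys.A_add (vec_add h), h', c7.A_self]; rfl)
  change x r * x s = x s * x r * x _ at this
  rw [this, ← (c2.mul_right c1).eq]
  group

theorem IsR.special {d d' : G} {a b : V} (h : IsR d a) (h' : IsR d' b) (h1 : gf a b = 0)
    (h2 : br a b ≠ 0) : IsR (d * d' * d⁻¹ * d'⁻¹) (br a b) := by
  obtain ⟨g, r, rfl, rfl⟩ := exists_pair h.1 h'.1
  rw [h.eq ((isR_x θ).conj g), h'.eq ((isR_x r).conj g), ← π_br]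
  rcases A_tri θ r with k | k | rfl
  · rw [← π_br, br_e_zero k, map_zero] at h2
    exact absurd rfl h2
  · have := (isR_x (c7.refl θ r)).conj g
    rw [← x_comm k, ← br_e_add k] at this
    convert this using 1
    group
  · rw [π_gf, neg_θ, gf_θ_θ'] at h1
    exact absurd h1 one_ne_zero

theorem IsR.eq_vec {d : G} {a b : V} (h : IsR d a) (h' : IsR d b) : a = b := by
  obtain ⟨g, r, rfl, rfl⟩ := exists_pair h.1 h'.1
  have k := (h.eq ((isR_x θ).conj g)).symm.trans (h'.eq ((isR_x r).conj g))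
  rw [mul_left_inj, mul_right_inj] at k
  have k1 := (π_x θ (e θ')).symm.trans (k ▸ π_x r (e θ'))
  have k2 := congrFun k1 (inr θ)
  rcases A_tri r θ' with e1 | e1 | e1
  · rw [X_apply, X_apply, br_e_zero e1, br_θ_θ', gf_θ_θ', gf_ee,
      if_neg (RootSys.ne_neg_of_A_nonneg e1)] at k2
    simp [e, bv_apply, hv, LieBasis.hv] at k2
  · have k3 := deg_le (inr r)
    have k4 : deg (inr (c7.refl r θ')) = -2 + deg (inr r) := by
      rw [deg_inr, vec_add e1, ← deg_θ']; rfl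
    have k5 : θ ≠ c7.refl r θ' := fun e => by rw [← e, deg_θ] at k4; omega
    rw [X_apply, X_apply, br_e_add e1, br_θ_θ', gf_θ_θ', gf_ee, if_neg (ne_neg e1)] at k2
    simp [e, bv_apply, hv, LieBasis.hv, k5] at k2
  · rw [c7.neg_injective (neg_θ.trans e1)]

/-! ### The image of `M ⊓ Q` -/

theorem Q_act {q : G} (hq : q ∈ Q) {v : V} (h : v ∈ Lge 1) :
    π q v + v = br (π q (hv θ) + hv θ) v := by
  have h1 := P_h (Q_le_P hq)
  have h2 : ∀ v ∈ Lge 2, π q v + v = 0 ∧ br (π q (hv θ) + hv θ) v = 0 ∧ br (hv θ) v = 0 :=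
    fun v h => ⟨eq_zero_of_Lge (Q_Lge hq h), eq_zero_of_Lge (br_Lge h1 h), by
      rcases mem_Lge_two.1 h with rfl | rfl
      · simp
      · exact (br_h (k := 2) (bv_mem deg_θ)).trans (zero_smul _ _)⟩
  have h3 : ∀ v ∈ Lk 1, π q v + v = br (π q (hv θ) + hv θ) v := fun v h => by
    have k := π_br q (hv θ) v
    obtain ⟨-, k1, k2⟩ := h2 _ (Q_Lge hq (Lk_le _ h))
    have k3 : br (hv θ) v = v := by simpa using br_h h
    simp only [map_add, LinearMap.add_apply, k3] at k k1 k2 ⊢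
    linear_combination (norm := match_scalars <;> first | decide | (ring_nf <;> simp [two]))
      (1 : F) • k + k1 + k2
  obtain ⟨k1, k2, -⟩ := h2 _ (add_pr_mem h)
  have := h3 _ (pr_mem 1 v)
  rw [map_add] at k1 k2
  linear_combination (norm := match_scalars <;> first | decide | (ring_nf <;> simp [two]))
    (1 : F) • this + k1 + k2

theorem Q_mul_h {q q' : G} (hq : q ∈ Q) (hq' : q' ∈ Q) : π (q * q') (hv θ) + hv θ =
    (π q (hv θ) + hv θ) + (π q' (hv θ) + hv θ) + br (π q (hv θ) + hv θ) (π q' (hv θ) + hv θ) := by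
  rw [← Q_act hq (P_h (Q_le_P hq')), π_mul, map_add]
  refine c2 ?_
  match_scalars <;> decide

/-- The image of `M ⊓ Q` in the positive part of the filtration. -/
def Wf (M : Subgroup G) : Submodule F V where
  carrier := {v | ∃ q ∈ M, q ∈ Q ∧ π q (hv θ) + hv θ + v ∈ Lge 2}
  add_mem' := by
    rintro a b ⟨q, h1, h2, h3⟩ ⟨q', h4, h5, h6⟩
    refine ⟨q * q', mul_mem h1 h4, mul_mem h2 h5, ?_⟩
    rw [Q_mul_h h2 h5]
    convert add_mem (add_mem h3 h6) (br_Lge (P_h (Q_le_P h2)) (P_h (Q_le_P h5))) using 1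
    abel
  zero_mem' := ⟨1, one_mem _, one_mem _, by simp⟩
  smul_mem' t v h := by
    rcases f01 t with rfl | rfl
    · exact ⟨1, one_mem _, one_mem _, by simp⟩
    · rwa [one_smul]

theorem mem_Wf {M : Subgroup G} {v : V} :
    v ∈ Wf M ↔ ∃ q ∈ M, q ∈ Q ∧ π q (hv θ) + hv θ + v ∈ Lge 2 := Iff.rfl

theorem mem_Wf_of {M : Subgroup G} {q : G} (h1 : q ∈ M) (h2 : q ∈ Q) : π q (hv θ) + hv θ ∈ Wf M :=
  ⟨q, h1, h2, by simp⟩

theorem θ_mem_Wf (M : Subgroup G) : e θ ∈ Wf M :=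
  ⟨1, one_mem _, one_mem _, by simpa using e_mem_Lge (by simp)⟩

theorem Wf_mono {M M' : Subgroup G} (h : M ≤ M') : Wf M ≤ Wf M' :=
  fun _ ⟨q, h1, h2⟩ => ⟨q, h h1, h2⟩

theorem Wf_le (M : Subgroup G) : Wf M ≤ Lge 1 := fun v ⟨q, _, h2, h3⟩ => by
  simpa using add_mem (P_h (Q_le_P h2)) (Lge_mono one_le_two h3)

theorem π_mem_Wf {M : Subgroup G} {g : G} (h1 : g ∈ M) (h2 : g ∈ P) {v : V} (h : v ∈ Wf M) :
    π g v ∈ Wf M := by
  obtain ⟨q, k1, k2, k3⟩ := h
  refine ⟨g * q * g⁻¹, mul_mem (mul_mem h1 k1) (inv_mem h1), conj_mem_Q h2 k2, ?_⟩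
  convert P_Lge h2 (add_mem k3 (Q_Lge k2 (P_h (inv_mem h2)))) using 1
  simp only [map_add, π_mul, π_π_inv]
  refine c2 ?_
  match_scalars <;> decide

theorem x_h (r : Rt) : π (x r) (hv θ) + hv θ = (deg (inr r) : F) • e r := by
  rw [π_x, X_apply, gf_e_hv, br_comm, br_h (e_mem_Lk r)]
  match_scalars <;> first | decide | (ring_nf <;> simp [two])

theorem Wf_top : Wf ⊤ = Lge 1 := le_antisymm (Wf_le _) fun _ hv =>
  Sp_ind (zero_mem _) (fun _ _ => add_mem) (fun c hc => by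
    rcases c with i | r
    · simp at hc
    · by_cases h : deg (inr r) = 1
      · simpa [x_h, h, e] using mem_Wf_of (Subgroup.mem_top _) (x_mem_Q (r := r) (by omega))
      · rw [eq_θ (c := inr r) (by simp at hc; omega)]
        exact θ_mem_Wf _) hv

theorem eq_of_Q {q : G} (hq : q ∈ Q) (h : π q (hv θ) + hv θ ∈ Lge 2) : q = 1 ∨ q = x θ := by
  have hc : c7.Closed {r | 0 < deg (inr r)} := RootSys.closed_linear_pos (LinearMap.proj 0)
  obtain ⟨L, h1, h2⟩ := PreSt.exists_list {r : Rt | 0 < deg (inr r)}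
  obtain ⟨t, -, rfl⟩ := ρ.exists_prodL hc ⟨LinearMap.proj 0, fun _ h => h⟩ h1 h2 hq
  have key : ∀ L : List Rt, (∀ r ∈ L, 0 < deg (inr r)) → L.Nodup → ∀ r, deg (inr r) = 1 →
      (π (ρ.prodL L t) (hv θ) + hv θ) (inr r) = if r ∈ L then t r else 0 := fun L k1 k2 r hr => by
    induction L with
    | nil => simp [CharTwo.add_self_eq_zero]
    | cons s L ih =>
      have k3 : ρ.prodL L t ∈ Q := ρ.prodL_mem_U (fun r hr => k1 r (by simp [hr])) t
      have k4 : ρ.x s (t s) ∈ Q := ρ.x_mem_U (k1 s (by simp)) _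
      rw [PreSt.prodL_cons, Q_mul_h k4 k3, Pi.add_apply, Pi.add_apply,
        ih (fun r hr => k1 r (by simp [hr])) k2.of_cons,
        br_Lge (P_h (Q_le_P k4)) (P_h (Q_le_P k3)) _ (by simp [hr])]
      have k5 : (π (ρ.x s (t s)) (hv θ) + hv θ) (inr r) = if r = s then t r else 0 := by
        rcases f01 (t s) with e2 | e2
        · rw [e2, ρ.x_zero, π_one, add_self]
          split_ifs with e1 <;> simp [e1, e2]
        · rw [e2, ← x, x_h]
          split_ifs with e1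
          · simp [← e1, hr, e, bv_apply, e1 ▸ e2]
          · simp [e, bv_apply, e1]
      rw [k5]
      by_cases e1 : r = s
      · simp [e1, (List.nodup_cons.1 k2).1]
      · simp [e1]
  have : ρ.prodL L t ∈ ρ.X θ := by
    refine Subgroup.list_prod_mem _ fun y hy => ?_
    obtain ⟨r, hr, rfl⟩ := List.mem_map.1 hy
    by_cases e1 : deg (inr r) = 1
    · have := key L (fun r hr => (h1 r).1 hr) h2 r e1
      rw [h _ (by simp [e1]), if_pos hr] at this
      rw [← this, ρ.x_zero]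
      exact one_mem _
    · have := (h1 r).1 hr
      rw [inr_injective (eq_θ (c := inr r) (by simp at this; omega))]
      exact ρ.x_mem_X _ _
  obtain ⟨s, hs⟩ := ρ.mem_X.1 this
  exact hs ▸ x_eq θ s

theorem mem_of_Wf {M : Subgroup G} (hy : x θ ∈ M) {q : G} (hq : q ∈ Q)
    (h : π q (hv θ) + hv θ ∈ Wf M) : q ∈ M := by
  obtain ⟨q', h1, h2, h3⟩ := h
  have := eq_of_Q (mul_mem (inv_mem h2) hq) (by
    convert P_Lge (inv_mem (Q_le_P h2)) h3 using 1
    simp only [map_add, π_mul, π_inv_π]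
    refine c2 ?_
    match_scalars <;> decide)
  rw [inv_mul_eq_one, inv_mul_eq_iff_eq_mul] at this
  rcases this with rfl | rfl
  exacts [h1, mul_mem h1 hy]

theorem eq_top_of_Q {M : Subgroup G} (hQ : Q ≤ M) (h : x θ' ∈ M) : M = ⊤ := by
  have h0 := hQ (x_mem_Q (r := θ) (by simp))
  have h1 : ∀ r, deg (inr r) = -1 → x r ∈ M := fun r hr => by
    have k : c7.A θ' (c7.refl θ r) = -1 := by
      rw [← neg_θ, c7.A_neg_left, RootSys.A_add (vec_add ((A_θ r).trans hr)), A_θ, hr, c7.A_self]; rfl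
    have k1 : c7.refl θ' (c7.refl θ r) = r := c7.vec_inj (by
      rw [vec_add k, vec_add ((A_θ r).trans hr), ← neg_θ, c7.vec_neg, add_neg_cancel_right])
    have k2 := hQ (x_mem_Q (r := c7.refl θ r) (by
      rw [← A_θ, RootSys.A_add (vec_add ((A_θ r).trans hr)), A_θ, hr, c7.A_self]; decide))
    rw [← k1, ← x_comm k]
    exact mul_mem (mul_mem (mul_mem h k2) (inv_mem h)) (inv_mem k2)
  have h2 : ∀ r, x r ∈ M := fun r => by
    have := deg_le (inr r)
    have := le_deg (inr r)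
    by_cases k0 : deg (inr r) = 0
    · have : ∀ r : Rt, ∃ a : Rt, 93 ≤ a.val ∧ a.val ≤ 124 ∧ (33 ≤ r.val → r.val ≤ 92 →
          ∑ i : Fin 7, tabE7.cov a i * tabE7.car i r = 1) := by decide +kernel
      obtain ⟨a, a1, a2, a3⟩ := this r
      have k1 : deg (inr a) = 1 := by rw [deg_val]; split_ifs <;> omega
      rw [← tb7.A] at a3
      replace a3 := a3 (by rw [deg_val] at k0; split_ifs at k0 <;> omega)
        (by rw [deg_val] at k0; split_ifs at k0 <;> omega)
      have k2 : c7.A a (c7.refl a r) = -1 := by rw [c7.A_refl_right, a3, c7.A_self]; rfl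
      have k3 := h1 (c7.refl a r) (by rw [← A_θ, c7.A_refl_right, a3, A_θ, A_θ, k0, k1]; rfl)
      have k4 := hQ (x_mem_Q (r := a) (by omega))
      rw [← c7.refl_refl a r, ← x_comm k2]
      exact mul_mem (mul_mem (mul_mem k4 k3) (inv_mem k4)) (inv_mem k3)
    by_cases k1 : deg (inr r) = -1
    · exact h1 r k1
    by_cases k2 : 0 < deg (inr r)
    · exact hQ (x_mem_Q k2)
    · rwa [inr_injective (eq_θ' (c := inr r) (by omega))]
  exact eq_top_iff.2 fun g _ => G_ind (one_mem _) (fun g r => mul_mem (h2 r)) g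

end CF.E7t
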