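import Cfsg.Agent.E7t.C

/-! Overgroups of stabilizers of subalgebras in `E₇(2)`; the parabolic subgroups. -/

set_option autoImplicit false

namespace CF.E7t

open CF.Chev CF.BN Cfsg Cfsg.Lie Matrix Sum LieBasis

instance instFiniteG : Finite G := Finite.of_injective (fun g v => π g v) fun _ _ h =>
  π_inj (LinearMap.ext fun v => congrFun h v)

/-- The stabilizer of a set of vectors. -/
noncomputable def StS (S : Set V) : Subgroup G where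
  carrier := {g | ∀ v ∈ S, π g v ∈ S}
  mul_mem' ha hb v hv := by rw [π_mul]; exact ha _ (hb v hv)
  one_mem' v hv := by simpa
  inv_mem' {g} hg v hv := by
    obtain ⟨⟨w, hw⟩, e⟩ := Finite.surjective_of_injective (f := fun v : S => (⟨π g v, hg _ v.2⟩ : S))
      (fun a b h => Subtype.ext (π_injective g (Subtype.mk.inj h))) ⟨v, hv⟩
    rwa [← Subtype.mk.inj e, π_inv_π]

theorem mem_StS {S : Set V} {g : G} : g ∈ StS S ↔ ∀ v ∈ S, π g v ∈ S := Iff.rfl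

/-- The stabilizer of a subspace. -/
noncomputable abbrev St (Y : Submodule F V) : Subgroup G := StS Y

theorem mem_St {Y : Submodule F V} {g : G} : g ∈ St Y ↔ ∀ v ∈ Y, π g v ∈ Y := Iff.rfl

theorem mem_St_span {S : Set V} {g : G} (h : ∀ v ∈ S, π g v ∈ Submodule.span F S) :
    g ∈ St (Submodule.span F S) := fun _ hv =>
  Submodule.mem_comap.1 ((Submodule.span_le (p := (Submodule.span F S).comap (π g))).2
    (fun v k => Submodule.mem_comap.2 (h v k)) hv)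

/-- No invariant subspace lies properly between `A` and `B`. -/
def Irr (S : Subgroup G) (A B : Submodule F V) : Prop :=
  ∀ W, A ≤ W → W ≤ B → S ≤ St W → W = A ∨ W = B

theorem Irr.mono {S T : Subgroup G} {A B : Submodule F V} (h : Irr S A B) (e : S ≤ T) : Irr T A B :=
  fun W h1 h2 h3 => h W h1 h2 (e.trans h3)

/-- Subalgebras. -/
def Sub (Y : Submodule F V) : Prop := ∀ u ∈ Y, ∀ v ∈ Y, br u v ∈ Y

theorem IsR.mem_St {d : G} {a : V} (h : IsR d a) {W : Submodule F V} (h1 : a ∈ W)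
    (h2 : ∀ v ∈ W, br a v ∈ W) : d ∈ St W := fun v hv => by
  rw [h.2, X_apply]
  exact add_mem (add_mem hv (h2 v hv)) (W.smul_mem _ h1)

theorem IsR.br_mem {d : G} {a : V} (h : IsR d a) {W : Submodule F V} (h1 : a ∈ W) (h2 : d ∈ St W)
    {v : V} (hv : v ∈ W) : br a v ∈ W := by
  have := add_mem (add_mem hv (h2 v hv)) (W.smul_mem (gf a v) h1)
  simpa [h.2, X_apply, add_assoc] using this

theorem Sub.mem_St {Y : Submodule F V} (hY : Sub Y) {d : G} {a : V} (h : IsR d a) (ha : a ∈ Y) :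
    d ∈ St Y := h.mem_St ha (hY a ha)

/-- The extremal vectors of the root involutions in `M`. -/
def EM (M : Subgroup G) : Set V := {a | ∃ d ∈ M, IsR d a}

theorem EM_sub (M : Subgroup G) : EM M ⊆ E := fun _ ⟨_, _, h⟩ => h.1

theorem EM_mono {M M' : Subgroup G} (h : M ≤ M') : EM M ⊆ EM M' := fun _ ⟨d, h1, h2⟩ => ⟨d, h h1, h2⟩

theorem π_mem_EM {M : Subgroup G} {g : G} (hg : g ∈ M) {a : V} (h : a ∈ EM M) : π g a ∈ EM M :=
  h.elim fun _ hd => ⟨_, mul_mem (mul_mem hg hd.1) (inv_mem hg), hd.2.conj g⟩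

theorem le_StS_EM (M : Subgroup G) : M ≤ StS (EM M) := fun _ hg _ => π_mem_EM hg

theorem EM_conj (M : Subgroup G) (g : G) : EM (M.map (MulAut.conj g).toMonoidHom) = π g '' EM M := by
  ext a
  refine ⟨?_, ?_⟩
  · rintro ⟨_, ⟨d, h1, rfl⟩, h2⟩
    exact ⟨π g⁻¹ a, ⟨d, h1, by simpa [mul_assoc] using h2.conj g⁻¹⟩, π_π_inv g a⟩
  · rintro ⟨a, ⟨d, h1, h2⟩, rfl⟩
    exact ⟨_, ⟨d, h1, rfl⟩, h2.conj g⟩

theorem IsR.mem_of_EM {M : Subgroup G} {d : G} {a : V} (h : IsR d a) (ha : a ∈ EM M) : d ∈ M :=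
  ha.elim fun _ k => h.eq k.2 ▸ k.1

theorem Sub.mem_EM {Y : Submodule F V} (hY : Sub Y) {M : Subgroup G} (hM : St Y ≤ M) {a : V}
    (h1 : a ∈ E) (h2 : a ∈ Y) : a ∈ EM M :=
  (exists_isR h1).imp fun _ h => ⟨hM (hY.mem_St h h2), h⟩

/-- Opposite vectors are conjugate. -/
theorem exists_π_of_gf {M : Subgroup G} {a b : V} (ha : a ∈ EM M) (hb : b ∈ EM M) (h : gf a b = 1) :
    ∃ k ∈ M, π k a = b := by
  obtain ⟨d, h1, h2⟩ := ha
  obtain ⟨d', h3, h4⟩ := hb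
  exact ⟨_, mul_mem h1 h3, h2.braid h4 h⟩

theorem br_mem_EM {M : Subgroup G} {a b : V} (ha : a ∈ EM M) (hb : b ∈ EM M) (h : gf a b = 0) :
    br a b = 0 ∨ br a b ∈ EM M := by
  obtain ⟨d, h1, h2⟩ := ha
  obtain ⟨d', h3, h4⟩ := hb
  exact or_iff_not_imp_left.2 fun e =>
    ⟨_, mul_mem (mul_mem (mul_mem h1 h3) (inv_mem h1)) (inv_mem h3), h2.special h4 h e⟩

theorem eq_top_of_Wf {M : Subgroup G} (h1 : x θ ∈ M) (h2 : x θ' ∈ M) (h : Lge 1 ≤ Wf M) : M = ⊤ :=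
  eq_top_of_Q (fun _ hq => mem_of_Wf h1 hq (h (P_h (Q_le_P hq)))) h2

theorem le_St_Wf (M : Subgroup G) : M ⊓ P ≤ St (Wf M) := fun _ hg _ => π_mem_Wf hg.1 hg.2

/-- A vector of `E` commuting with the highest root vector. -/
theorem exists_of_comm {a : V} (h : a ∈ E) (h1 : gf (e θ) a = 0) (h2 : br (e θ) a = 0) :
    ∃ u ∈ P, ∃ r, 0 ≤ deg (inr r) ∧ a = π u (e r) := by
  obtain ⟨u, hu, r, rfl⟩ := exists_ue h
  refine ⟨u, hu, r, ?_, rfl⟩
  rw [← P_θ hu, π_gf] at h1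
  rw [← P_θ hu, ← π_br] at h2
  rcases A_tri θ r with k | k | rfl
  · rwa [← A_θ]
  · exact absurd (π_injective u (by rw [← br_e_add k, h2, map_zero])) (e_ne_zero (c7.refl θ r))
  · rw [neg_θ, gf_θ_θ'] at h1
    exact absurd h1 one_ne_zero

theorem br_h_pr {v : V} (h : v ∈ Lge 0) : br (hv θ) v = pr 1 v := by
  conv_lhs => rw [sum_pr v]
  simp [map_add, br_h (pr_mem _ v), pr_of_lt h, two]

theorem IsR.mem_Wf {M : Subgroup G} {d : G} {a : V} (h : IsR d a) (hd : d ∈ M) (hq : d ∈ Q)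
    (ha : a ∈ Lge 1) : a ∈ Wf M := ⟨d, hd, hq, by
  rw [h.2, X_apply, gf_Lge ha (Lk_le _ (hv_mem θ)) one_pos, br_comm, br_h_pr (Lge_mono zero_le_one ha)]
  rw [zero_smul, add_zero, add_comm (hv θ), add_assoc (pr 1 a), add_self, add_zero, add_comm]
  exact add_pr_mem ha⟩

/-- The hypotheses of the uniform lemma. -/
structure Unif (Y : Submodule F V) : Prop where
  sub : Sub Y
  θ_mem : e θ ∈ Y
  θ'_mem : e θ' ∈ Y
  irr : Irr (St Y ⊓ P) (Y ⊓ Lge 1) (Lge 1)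
  wf : Y ⊓ Lk 1 ≤ Wf (St Y)
  nz : ∀ v ∈ Lk 0, (∀ u ∈ Y ⊓ Lk 1, br v u ∈ Y) → v ∈ Y
  nd : ∀ u ∈ Y ⊓ Lk 1, u ≠ 0 → ∃ u' ∈ Y ⊓ Lk 1, br u u' ≠ 0
  ne : ∃ u ∈ Y ⊓ Lk 1, u ≠ 0

namespace Unif

variable {Y : Submodule F V} (H : Unif Y) {M : Subgroup G}
include H

theorem two_le : Lge 2 ≤ Y := fun _ h => by
  rcases mem_Lge_two.1 h with rfl | rfl
  exacts [zero_mem _, H.θ_mem]

theorem pr_mem' {v : V} (h : v ∈ Y ⊓ Lge 1) : pr 1 v ∈ Y ⊓ Lk 1 :=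
  ⟨by simpa using add_mem h.1 (H.two_le (add_pr_mem h.2)), pr_mem 1 v⟩

theorem wf' : Y ⊓ Lge 1 ≤ Wf (St Y) := fun v h => by
  have := add_mem (H.wf (H.pr_mem' h)) (show v + pr 1 v ∈ Wf (St Y) by
    rcases mem_Lge_two.1 (add_pr_mem h.2) with e | e <;> rw [e]
    exacts [zero_mem _, θ_mem_Wf _])
  rwa [add_comm v, add_add_cancel] at this

theorem xθ : x θ ∈ St Y := H.sub.mem_St (isR_x θ) H.θ_mem

theorem xθ' : x θ' ∈ St Y := H.sub.mem_St (isR_x θ') H.θ'_mem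

theorem Wf_eq (h1 : St Y ≤ M) (h2 : M ≠ ⊤) : Wf M = Y ⊓ Lge 1 :=
  (H.irr _ (H.wf'.trans (Wf_mono h1)) (Wf_le M) ((inf_le_inf_right _ h1).trans (le_St_Wf M))).resolve_right
    fun e => h2 (eq_top_of_Wf (h1 H.xθ) (h1 H.xθ') e.ge)

theorem mem_of_comm (h1 : St Y ≤ M) (h2 : M ≠ ⊤) {a : V} (ha : a ∈ EM M) (k1 : gf (e θ) a = 0)
    (k2 : br (e θ) a = 0) : a ∈ Y := by
  obtain ⟨d, hd, h⟩ := ha
  obtain ⟨u, hu, r, hr, rfl⟩ := exists_of_comm h.1 k1 k2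
  have e1 := h.eq ((isR_x r).conj u)
  rcases hr.lt_or_eq with hr | hr
  · exact ((H.Wf_eq h1 h2).le (h.mem_Wf hd (e1 ▸ conj_mem_Q hu (x_mem_Q hr))
      (P_Lge hu (e_mem_Lge hr)))).1
  obtain ⟨q, hq, l, hl, rfl⟩ := exists_QL hu
  have a0 : π l (e r) ∈ Lk 0 := L0_Lk hl (bv_mem hr.symm)
  have a1 : π (q * l) (e r) + π l (e r) ∈ Lge 1 := by simpa [π_mul] using Q_Lge hq (Lk_le _ a0)
  have a2 : π (q * l) (e r) ∈ Lge 0 := P_Lge hu (e_mem_Lge hr.le)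
  have dP : d ∈ P := e1 ▸ mul_mem (mul_mem hu (L0_le_P (x_mem_L0 hr.symm))) (inv_mem hu)
  have b0 : π l (e r) ∈ Y := H.nz _ a0 fun v hv => by
    have c1 := ((H.Wf_eq h1 h2).le (π_mem_Wf hd dP ((H.Wf_eq h1 h2).ge ⟨hv.1, Lk_le _ hv.2⟩))).1
    rw [h.2, X_apply, gf_Lge a2 (Lk_le _ hv.2) one_pos, zero_smul, add_zero] at c1
    convert add_mem (add_mem hv.1 c1) (H.two_le (br_Lge a1 (Lk_le _ hv.2))) using 1
    simp only [map_add, LinearMap.add_apply]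
    refine c2 ?_
    match_scalars <;> decide
  have b1 := H.sub.mem_St ((isR_x r).conj l) b0
  have b2 : d * (l * x r * l⁻¹)⁻¹ ∈ Q := by
    have := mul_mem hq (conj_mem_Q (L0_le_P (mul_mem (mul_mem hl (x_mem_L0 hr.symm)) (inv_mem hl)))
      (inv_mem hq))
    convert this using 1
    rw [e1]
    group
  have b3 := mem_of_Wf H.xθ b2 (H.wf' ((H.Wf_eq h1 h2).le (mem_Wf_of (mul_mem hd (inv_mem (h1 b1))) b2)))
  have b4 := mul_mem b3 b1
  rw [inv_mul_cancel_right] at b4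
  have hY := H.sub _ H.θ_mem _ H.θ'_mem
  rw [br_θ_θ'] at hY
  have b5 := add_mem hY (b4 _ hY)
  have b6 : gf (π (q * l) (e r)) (hv θ) = 0 := by
    have := gf_Lge a1 (Lk_le _ (hv_mem θ)) one_pos
    rwa [map_add, LinearMap.add_apply, ← L0_h hl, π_gf, gf_e_hv, add_zero, L0_h hl] at this
  rw [h.2, X_apply, b6, zero_smul, add_zero, add_add_cancel, br_comm, br_h_pr a2] at b5
  have b7 := H.two_le (add_pr_mem a1)
  rw [map_add, pr_of_ne a0 (by decide), add_zero] at b7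
  convert add_mem (add_mem b7 b5) b0 using 1
  refine c2 ?_
  match_scalars <;> decide

theorem exists_q {u : V} (hu : u ∈ Y ⊓ Lge 1) (h0 : u ∉ Lge 2) :
    ∃ q ∈ St Y, q ∈ Q ∧ π q u + u = e θ := by
  obtain ⟨u', h1, h2⟩ := H.nd _ (H.pr_mem' hu) fun e => h0 (by simpa [e] using add_pr_mem hu.2)
  obtain ⟨q, k1, k2, k3⟩ := H.wf h1
  refine ⟨q, k1, k2, (mem_Lge_two.1 (Q_Lge k2 hu.2)).resolve_left fun e => h2 ?_⟩
  have c1 := eq_zero_of_Lge (br_Lge k3 hu.2)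
  have c3 := eq_zero_of_Lge (br_Lge (Lk_le _ h1.2) (add_pr_mem hu.2))
  rw [map_add, LinearMap.add_apply, ← Q_act k2 hu.2, e, zero_add] at c1
  rwa [map_add, c1, zero_add, br_comm] at c3

theorem exists_k {c : V} (h1 : c ∈ E) (h2 : c ∈ Y ⊓ Lge 1) : ∃ k ∈ St Y, π k (e θ) = c := by
  by_cases h0 : c ∈ Lge 2
  · exact ⟨1, one_mem _, by rw [π_one, (mem_Lge_two.1 h0).resolve_left (ne_zero_of_E h1)]⟩
  have m1 := H.sub.mem_EM le_rfl (e_mem_E θ') H.θ'_mem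
  obtain ⟨k, k1, k2⟩ := exists_π_of_gf (H.sub.mem_EM le_rfl (e_mem_E θ) H.θ_mem) m1 gf_θ_θ'
  have key : ∀ c ∈ E, c ∈ Y → gf (e θ') c = 1 → ∃ k ∈ St Y, π k (e θ) = c := fun c h1 h2 h3 => by
    obtain ⟨k', k3, k4⟩ := exists_π_of_gf m1 (H.sub.mem_EM le_rfl h1 h2) h3
    exact ⟨k' * k, mul_mem k3 k1, by rw [π_mul, k2, k4]⟩
  rcases f01 (gf (e θ') c) with h3 | h3
  · obtain ⟨q, q1, -, q3⟩ := H.exists_q h2 h0
    obtain ⟨k', k3, k4⟩ := key _ (π_mem_E h1 q) (q1 _ h2.1) (by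
      have := congrArg (gf (e θ')) q3
      rwa [map_add, h3, add_zero, gf_comm _ (e θ), gf_θ_θ'] at this)
    exact ⟨q⁻¹ * k', mul_mem (inv_mem q1) k3, by rw [π_mul, k4, π_inv_π]⟩
  · exact key c h1 h2.1 h3

theorem mem_of_gf (h1 : St Y ≤ M) (h2 : M ≠ ⊤) {a : V} (ha : a ∈ EM M) (k1 : gf (e θ) a = 0) :
    a ∈ Y := by
  rcases br_mem_EM (H.sub.mem_EM h1 (e_mem_E θ) H.θ_mem) ha k1 with k2 | k2
  · exact H.mem_of_comm h1 h2 ha k1 k2
  have c1 := H.mem_of_comm h1 h2 k2 (gf_br_self _ _) (br_br_e _ _)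
  have c3 : a ∈ Lge (-1) := fun c hc => by
    rw [eq_θ' (c := c) (by simp at hc; omega), ← gf_θ a, k1]
  obtain ⟨k, k3, k4⟩ := H.exists_k (EM_sub _ k2) ⟨c1, br_Lge (e_mem_Lge (k := 2) (by simp)) c3⟩
  have := H.mem_of_comm h1 h2 (π_mem_EM (h1 (inv_mem k3)) ha)
    (by rw [← π_gf k, π_π_inv, k4, gf_br, br_self, map_zero])
    (π_injective k (by
      rw [π_br, π_π_inv, k4, br_comm, br_comm (e θ), br_br (EM_sub _ ha), map_zero]))
  simpa using k3 _ this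

theorem exists_gf (a : V) : ∃ k ∈ St Y, gf (π k (e θ)) a = 0 := by
  by_contra hc
  have h0 : ∀ k ∈ St Y, gf a (π k (e θ)) = 1 := fun k hk => f_ne fun e => hc ⟨k, hk, gf_comm _ _ ▸ e⟩
  obtain ⟨n, n1, n2⟩ := exists_π_of_gf (H.sub.mem_EM le_rfl (e_mem_E θ) H.θ_mem)
    (H.sub.mem_EM le_rfl (e_mem_E θ') H.θ'_mem) gf_θ_θ'
  have h1 : ∀ q ∈ St Y, q ∈ Q → gf a (π q (hv θ)) = 1 := fun q q1 q2 => by
    have c1 := h0 _ (mul_mem q1 n1)
    have c2 := h0 _ (mul_mem q1 (mul_mem H.xθ n1))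
    have c3 := h0 _ q1
    rw [π_mul, n2] at c1
    rw [π_mul, π_mul, n2, π_x, X_apply, br_θ_θ', gf_θ_θ', one_smul, map_add, map_add, map_add,
      map_add, c1, c3] at c2
    revert c2
    generalize gf a (π q (hv θ)) = t
    revert t
    decide
  have h2 : ∀ q ∈ St Y, q ∈ Q → gf a (π q (hv θ) + hv θ) = 0 := fun q q1 q2 => by
    have := h1 1 (one_mem _) (one_mem _)
    rw [π_one] at this
    rw [map_add, h1 q q1 q2, this]; rfl
  obtain ⟨u, u1, u2⟩ := H.ne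
  obtain ⟨q', k1, k2, k3⟩ := H.wf u1
  have u3 : u ∉ Lge 2 := fun e => u2 (by rw [← pr_of_mem u1.2, pr_of_lt e one_lt_two])
  have u4 := P_h (Q_le_P k2)
  obtain ⟨q, q1, q2, q3⟩ := H.exists_q (u := π q' (hv θ) + hv θ) ⟨by
    have := add_mem (H.two_le k3) u1.1
    rwa [add_assoc, add_self, add_zero] at this, u4⟩ fun e => u3 (by
    have := add_mem e k3
    rwa [add_add_cancel] at this)
  have c1 := h2 _ (mul_mem q1 k1) (mul_mem q2 k2)
  rw [Q_mul_h q2 k2, ← Q_act q2 u4, q3, map_add, map_add, h2 q q1 q2, h2 q' k1 k2,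
    ← π_one (e θ), h0 1 (one_mem _)] at c1
  exact absurd c1 (by decide)

/-- The uniform lemma. -/
theorem EM_le (h1 : St Y ≤ M) (h2 : M ≠ ⊤) {a : V} (ha : a ∈ EM M) : a ∈ Y := by
  obtain ⟨k, k1, k2⟩ := H.exists_gf a
  have := H.mem_of_gf h1 h2 (π_mem_EM (h1 (inv_mem k1)) ha) (by rwa [← π_gf k, π_π_inv])
  simpa using k1 _ this

theorem EM_eq (h1 : St Y ≤ M) (h2 : M ≠ ⊤) : EM M = E ∩ Y :=
  Set.ext fun _ => ⟨fun h => ⟨EM_sub _ h, H.EM_le h1 h2 h⟩, fun h => H.sub.mem_EM h1 h.1 h.2⟩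

end Unif

theorem exists_coatom {H : Subgroup G} (h : H ≠ ⊤) : ∃ M, IsCoatom M ∧ H ≤ M :=
  (eq_top_or_exists_le_coatom H).resolve_left h

/-- The stabilizer of a subspace containing some but not all extremal vectors is proper. -/
theorem StS_ne_top {S : Set V} {a b : V} (ha : a ∈ E) (hb : b ∈ E) (h1 : a ∈ S) (h2 : b ∉ S) :
    StS S ≠ ⊤ := fun h => by
  obtain ⟨g, rfl⟩ := ha
  obtain ⟨g', rfl⟩ := hb
  exact h2 (by simpa [π_mul] using h.ge (Subgroup.mem_top (g' * g⁻¹)) _ h1)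

/-! ### The maximal parabolic subgroups -/

/-- The maximal parabolic subgroups. -/
noncomputable def Par (i : Fin 7) : Subgroup G := ρ.PJ {i}ᶜ

theorem coatom_Par (i : Fin 7) : IsCoatom (Par i) := by
  refine ⟨fun h => ?_, fun M hM => ?_⟩
  · exact (StRep.ns_mem_PJ_iff faith).1 (h.ge (Subgroup.mem_top (ρ.ns i))) rfl
  · have h1 := StRep.eq_PJ_of_Bo_le ((ρ.Bo_le_PJ _).trans hM.le) (le_top.trans top.ge)
    have h2 := (StRep.PJ_le_PJ_iff faith).1 (hM.le.trans h1.le)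
    rw [h1, Set.eq_univ_of_forall (s := {i | ρ.ns i ∈ M}) fun j => ?_, ρ.PJ_univ, top]
    by_contra hj
    obtain rfl : j = i := not_not.1 fun e => hj (h2 e)
    exact hM.not_ge (h1.le.trans (StRep.PJ_mono fun k hk e => hj (e ▸ hk)))

theorem Par_conj {i j : Fin 7} {g : G} (h : (Par i).map (MulAut.conj g).toMonoidHom = Par j) :
    i = j := by
  let S := (linkE7.r3_gpRep F).sylow (ρ := ρ) faith top 2
  have hS : ∀ k, (S : Subgroup G) ≤ Par k := fun k => ρ.Up_le_Bo.trans (ρ.Bo_le_PJ _)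
  have h1 : ((g • S : Sylow 2 G) : Subgroup G) ≤ Par j := by
    rintro _ ⟨s, hs, rfl⟩
    exact h.le ⟨s, hS i hs, rfl⟩
  obtain ⟨k, hk⟩ := MulAction.exists_smul_eq (Par j) ((g • S).subtype h1) (S.subtype (hS j))
  have h2 : (k * g : G) • S = S := by
    rw [Sylow.smul_subtype] at hk
    rw [mul_smul]
    exact Sylow.subtype_injective hk
  have h3 : (k * g : G) ∈ ρ.Bo := (StRep.normalizer_Up_inf faith).le
    ⟨Sylow.smul_eq_iff_mem_normalizer.1 h2, top.ge (Subgroup.mem_top _)⟩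
  have h4 : g ∈ Par j := by simpa using mul_mem (inv_mem k.2) (ρ.Bo_le_PJ _ h3)
  have h5 : Par i ≤ Par j := fun y hy => by
    simpa [mul_assoc] using mul_mem (mul_mem (inv_mem h4) (h.le ⟨y, hy, rfl⟩)) h4
  exact not_not.1 fun e => (StRep.PJ_le_PJ_iff faith).1 h5 (Ne.symm e) rfl

theorem θ_mem_EM_Par (i : Fin 7) : e θ ∈ EM (Par i) :=
  ⟨_, ρ.Bo_le_PJ _ (ρ.x_mem_Bo top_θ.pos 1), isR_x θ⟩

theorem gf_Par {i : Fin 7} {a : V} (h : a ∈ EM (Par i)) : gf (e θ) a = 0 := by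
  by_contra hc
  obtain ⟨k, h1, h2⟩ := exists_π_of_gf (θ_mem_EM_Par i) h (f_ne hc)
  have h3 : x θ ∈ ρ.UJ {i}ᶜ := ρ.x_mem_U (S := {r | c7.Pos r ∧ ¬ c7.InSub {i}ᶜ r})
    ⟨top_θ.pos, fun e => by
      have := top_θ (c7.simple i) i
      simp [c7.vec_simple, e i (by simp)] at this⟩ 1
  have h4 := P_θ (Up_le_P (ρ.UJ_le_Up _ (StRep.PJ_conj_mem_UJ h1 h3)))
  have h5 := (isR_x θ).conj k
  rw [h2] at h5
  have h6 := congrArg (gf (e θ)) (h5.braid (isR_x θ) (gf_comm _ _ ▸ f_ne hc))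
  rw [π_mul, ← h4, π_gf, ← P_θ (Q_le_P (x_mem_Q (r := θ) (by simp))), π_gf, π_gf, gf_self] at h6
  exact hc h6

/-- A subgroup in which every root involution has an opposite one is not conjugate to a
parabolic subgroup. -/
theorem ne_Par {M : Subgroup G} (h : ∀ a ∈ EM M, ∃ b ∈ EM M, gf a b = 1) (i : Fin 7) (g : G) :
    (Par i).map (MulAut.conj g).toMonoidHom ≠ M := by
  rintro rfl
  rw [EM_conj] at h
  obtain ⟨_, ⟨b, h1, rfl⟩, h2⟩ := h _ ⟨_, θ_mem_EM_Par i, rfl⟩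
  rw [π_gf, gf_Par h1] at h2
  exact zero_ne_one h2

end CF.E7t
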